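import Mathlib
import Cfsg.Agent.H384.RC.Norm

/-!
# S3510 part B: all involutory dualities from the standard ones (helper384)
-/

set_option autoImplicit false

namespace Cfsg.Agent.H384.RC

open Matrix Cfsg
open Cfsg.Agent.ClassicalGeometry.AutPSL.Auto
open Cfsg.Agent.H999.PslGraph Cfsg.Agent.H999.PslGraphClasses Cfsg.Agent.H999.PslGraphTwo
open Cfsg.Agent.H999.PslGraphOdd
open Cfsg.Agent.H199.PslGraphField (gf)

theorem Killed.of_conjUnder {S : Type*} [Group S] {H : Subgroup (MulAut S)} {x y : MulAut S}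
    (h : IsConjUnder H x y) (hk : Killed x) : Killed y := by
  obtain ⟨g, -, rfl⟩ := h
  exact hk.conj g

/-- the Gram matrix of `quadFormOdd` -/
def gramOdd (m : ℕ) (F : Type*) [Field F] :
    Matrix (Unit ⊕ (Fin m ⊕ Fin m)) (Unit ⊕ (Fin m ⊕ Fin m)) F :=
  fromBlocks ((2 : F) • (1 : Matrix Unit Unit F)) 0 0 (gramPlus m F)

theorem gramOdd_transpose {F : Type*} [Field F] (m : ℕ) : (gramOdd m F)ᵀ = gramOdd m F := by
  rw [gramOdd, fromBlocks_transpose, transpose_zero, transpose_zero, gramPlus_transpose,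
    transpose_smul, transpose_one]

theorem bil_gramOdd {F : Type*} [Field F] (m : ℕ) (v : Unit ⊕ (Fin m ⊕ Fin m) → F) :
    v ⬝ᵥ (gramOdd m F *ᵥ v) = 2 * quadFormOdd m F v := by
  have h1 := bil_gramPlus m (v ∘ Sum.inr)
  rw [bil, dotProduct] at h1
  rw [quadFormOdd, gramOdd, dotProduct, Fintype.sum_sum_type, fromBlocks_mulVec]
  simp only [Sum.elim_inl, Sum.elim_inr, zero_mulVec, zero_add, add_zero]
  rw [mul_add]
  congr 1
  simp [smul_mulVec]
  ring

theorem det_gramOdd_ne_zero {F : Type*} [Field F] (h2 : (2 : F) ≠ 0) (m : ℕ) :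
    (gramOdd m F).det ≠ 0 := by
  rw [gramOdd, det_fromBlocks_zero₁₂, det_smul, det_one, mul_one]
  rw [det_gramPlus]
  exact mul_ne_zero (pow_ne_zero _ h2) (pow_ne_zero _ (neg_ne_zero.2 one_ne_zero))

/-- the matrix of the form in characteristic two, odd dimension -/
theorem det_one_J_ne_zero {F : Type*} [Field F] (m : ℕ) :
    (fromBlocks (1 : Matrix Unit Unit F) 0 0 (J (Fin m) F)).det ≠ 0 := by
  rw [det_fromBlocks_zero₁₂, det_one, one_mul]
  exact (isUnit_det_J (Fin m) F).ne_zero

/-- the symplectic matrix as an element of `GL` -/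
noncomputable def JG (m : ℕ) (F : Type*) [Field F] : GL (Fin m ⊕ Fin m) F :=
  Matrix.GeneralLinearGroup.mkOfDetNeZero (J (Fin m) F) (isUnit_det_J (Fin m) F).ne_zero

theorem coe_JG (m : ℕ) (F : Type*) [Field F] : (JG m F : Matrix _ _ F) = J (Fin m) F := rfl

/-- the standard forms of dimension `n` are killed -/
structure Types (n : ℕ) (F : Type) [Field F] [Fintype F] : Prop where
  S : ∀ m : ℕ, n = 2 * m → ∀ B : GL (Fin m ⊕ Fin m) F, (B : Matrix _ _ F) = J (Fin m) F →
    Killed (gam B)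
  odd : (2 : F) ≠ 0 → ∀ m : ℕ, n = 2 * m + 1 → ∀ B : GL (Unit ⊕ (Fin m ⊕ Fin m)) F,
    (B : Matrix _ _ F) = gramOdd m F → Killed (gam B)
  plus : (2 : F) ≠ 0 → ∀ m : ℕ, n = 2 * m → ∀ B : GL (Fin m ⊕ Fin m) F,
    (B : Matrix _ _ F) = gramPlus m F → Killed (gam B)
  minus : (2 : F) ≠ 0 → ∀ (m : ℕ) (a b : F), n = 2 * m + 2 →
    (∀ z₁ z₂ : F, z₁ ^ 2 + a * z₁ * z₂ + b * z₂ ^ 2 = 0 → z₁ = 0 ∧ z₂ = 0) →
    ∀ B : GL ((Fin m ⊕ Fin m) ⊕ Fin 2) F, (B : Matrix _ _ F) = gramMinus m F a b → Killed (gam B)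
  P1 : CharP F 2 → ∀ m : ℕ, n = 2 * m + 1 → ∀ B : GL (Unit ⊕ (Fin m ⊕ Fin m)) F,
    (B : Matrix _ _ F) = fromBlocks (1 : Matrix Unit Unit F) 0 0 (J (Fin m) F) → Killed (gam B)
  P2 : CharP F 2 → ∀ m : ℕ, n = 2 * m → ∀ l : Fin m ⊕ Fin m → F, l ≠ 0 →
    ∀ B : GL (Fin m ⊕ Fin m) F, (B : Matrix _ _ F) = J (Fin m) F + vecMulVec l l → Killed (gam B)
  U : ∀ (q : ℕ) (σ : F ≃+* F), Fintype.card F = q ^ 2 → (∀ a, σ a = a ^ q) →
    Killed (lift (fld σ) * It : MulAut (Matrix.ProjectiveSpecialLinearGroup (Fin n) F))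

section main

variable {F : Type} [Field F] [Fintype F] {n : ℕ}

theorem rx_coe {κ : Type} [Fintype κ] [DecidableEq κ] (e : Fin n ≃ κ) (C : Matrix κ κ F) (hC : C.det ≠ 0) :
    reGL e (rx e C hC) = Matrix.GeneralLinearGroup.mkOfDetNeZero C hC := by
  apply Units.ext
  rw [coe_reGL, coe_rx]
  ext i j
  simp

theorem Killed.of_rx {κ : Type} [Fintype κ] [DecidableEq κ] (e : Fin n ≃ κ) (C : Matrix κ κ F)
    (hC : C.det ≠ 0) (h : Killed (gam (Matrix.GeneralLinearGroup.mkOfDetNeZero C hC))) :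
    Killed (gam (rx e C hC)) := by
  have h1 : MulAut.congr (rePSL e) (gam (rx e C hC)) =
      gam (Matrix.GeneralLinearGroup.mkOfDetNeZero C hC) := by
    rw [congr_gam, rx_coe]
  rw [← h1] at h
  have h2 := h.congr (rePSL e).symm
  have h3 : MulAut.congr (rePSL e).symm (MulAut.congr (rePSL e) (gam (rx e C hC))) =
      gam (rx e C hC) := by
    ext x
    simp [MulAut.congr]
  rwa [h3] at h2

theorem killed_gam (hn : 3 ≤ n) (hT : Types n F) (B : GL (Fin n) F)
    (hB : (B : Matrix (Fin n) (Fin n) F)ᵀ = B ∨ (B : Matrix (Fin n) (Fin n) F)ᵀ = -B) :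
    Killed (gam B) := by
  have hn2 : 2 ≤ n := by omega
  have hnt : Nontrivial (Fin n) := Fin.nontrivial_iff_two_le.2 hn2
  obtain ⟨m, hm⟩ := Nat.even_or_odd' n
  obtain ⟨p, hp⟩ := CharP.exists F
  obtain ⟨k, hpp, hk⟩ := FiniteField.card F p
  have hfp : Fact p.Prime := ⟨hpp⟩
  -- the alternating case
  have hS : (∀ v, bil (B : Matrix (Fin n) (Fin n) F) v v = 0) → n = 2 * m → Killed (gam B) := by
    intro halt hnm
    obtain ⟨e, he⟩ := exists_symp hnm B halt
    refine Killed.of_equiv B (JG m F) e one_ne_zero (fun u v => ?_) (hT.S m hnm _ (coe_JG m F))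
    rw [he, one_mul]
    rfl
  rcases hm with hm | hm
  · by_cases h2 : (2 : F) = 0
    · -- characteristic two
      have hc2 : CharP F 2 := CharTwo.of_one_ne_zero_of_two_eq_zero one_ne_zero h2
      have hBs : (B : Matrix (Fin n) (Fin n) F)ᵀ = B := by
        rcases hB with h | h
        · exact h
        · rw [h]
          ext i j
          rw [Matrix.neg_apply]
          have : (B : Matrix (Fin n) (Fin n) F) i j + (B : Matrix (Fin n) (Fin n) F) i j = 0 := by
            rw [← two_mul, h2, zero_mul]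
          exact neg_eq_of_add_eq_zero_left this
      by_cases halt : ∀ v, bil (B : Matrix (Fin n) (Fin n) F) v v = 0
      · exact hS halt hm
      · have hm0 : 0 < m := by omega
        let w : Fin m ⊕ Fin m → F := Pi.single (.inl ⟨0, hm0⟩) 1
        have hw : w ≠ 0 := by
          intro h
          have := congrFun h (.inl ⟨0, hm0⟩)
          simp [w] at this
        obtain ⟨T, hT'⟩ := Cfsg.Agent.H999.PslGraphTwo.exists_form hm B hBs halt hw
        have hdet : (J (Fin m) F + vecMulVec w w).det ≠ 0 := by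
          intro h
          obtain ⟨v, hv, hv0⟩ := Matrix.exists_mulVec_eq_zero_iff.2 h
          have h5 : ∀ u, bil (B : Matrix (Fin n) (Fin n) F) u (T v) = 0 := by
            intro u
            have h6 := hT' (T.symm u) v
            rw [LinearEquiv.apply_symm_apply] at h6
            rw [h6, bil, hv0, dotProduct_zero]
          have h7 : T v = 0 := by
            funext i
            have h8 := h5 (((ct B : GL (Fin n) F) : Matrix (Fin n) (Fin n) F) *ᵥ Pi.single i 1)
            rw [bil, dotProduct_mulVec, ← mulVec_transpose, mulVec_mulVec] at h8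
            have h9 : (B : Matrix (Fin n) (Fin n) F)ᵀ * ((ct B : GL (Fin n) F) : Matrix (Fin n) (Fin n) F) = 1 := by
              rw [← coe_ct_inv, ← Units.val_mul, inv_mul_cancel, Units.val_one]
            rw [h9, one_mulVec, single_dotProduct, one_mul] at h8
            exact h8
          apply hv
          have := congrArg T.symm h7
          rwa [LinearEquiv.symm_apply_apply, map_zero] at this
        refine Killed.of_equiv B (Matrix.GeneralLinearGroup.mkOfDetNeZero _ hdet) T one_ne_zero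
          (fun u v => ?_) (hT.P2 hc2 m hm w hw _ rfl)
        rw [hT', one_mul]
        rfl
    · rcases hB with h | h
      · -- symmetric
        obtain ⟨m', rfl⟩ : ∃ m', m = m' + 1 := ⟨m - 1, by omega⟩
        obtain ⟨a, b, hab⟩ : ∃ a b : F, ∀ z₁ z₂ : F, z₁ ^ 2 + a * z₁ * z₂ + b * z₂ ^ 2 = 0 →
            z₁ = 0 ∧ z₂ = 0 := by
          obtain ⟨ν, hν⟩ := exists_not_isSquare h2
          refine ⟨0, -ν, fun z₁ z₂ h => ?_⟩
          have hz : z₂ = 0 := by
            by_contra hz
            apply hν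
            refine ⟨z₁ / z₂, ?_⟩
            field_simp
            linear_combination -h
          subst hz
          refine ⟨?_, rfl⟩
          have : z₁ ^ 2 = 0 := by linear_combination h
          exact pow_eq_zero_iff two_ne_zero |>.1 this
        have e : Fin n ≃ Fin (m' + 1) ⊕ Fin (m' + 1) :=
          Fintype.equivOfCardEq (by simp; omega)
        have e' : Fin n ≃ (Fin m' ⊕ Fin m') ⊕ Fin 2 :=
          Fintype.equivOfCardEq (by simp; omega)
        rcases symm_dichotomy h2 hn2 hab e e' B h with ⟨-, P, hP⟩ | ⟨-, P, hP⟩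
        · have h5 : Killed (gam (rx e (gramPlus (m' + 1) F) (det_gramPlus_ne_zero _))) :=
            Killed.of_rx e _ _ (hT.plus h2 (m' + 1) hm _ rfl)
          refine Killed.of_congr P⁻¹ one_ne_zero ?_ h5
          rw [hP, one_smul]
          have e1 : ((P⁻¹ : GL (Fin n) F) : Matrix (Fin n) (Fin n) F)ᵀ * (P : Matrix (Fin n) (Fin n) F)ᵀ = 1 := by
            rw [← transpose_mul, ← Units.val_mul, mul_inv_cancel, Units.val_one, transpose_one]
          have e2 : (P : Matrix (Fin n) (Fin n) F) * ((P⁻¹ : GL (Fin n) F) : Matrix (Fin n) (Fin n) F) = 1 := by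
            rw [← Units.val_mul, mul_inv_cancel, Units.val_one]
          calc _ = (((P⁻¹ : GL (Fin n) F) : Matrix (Fin n) (Fin n) F)ᵀ * (P : Matrix (Fin n) (Fin n) F)ᵀ) *
                (rx e (gramPlus (m' + 1) F) (det_gramPlus_ne_zero _) : Matrix (Fin n) (Fin n) F) *
                ((P : Matrix (Fin n) (Fin n) F) * ((P⁻¹ : GL (Fin n) F) : Matrix (Fin n) (Fin n) F)) := by
                simp only [Matrix.mul_assoc]
            _ = _ := by rw [e1, e2, Matrix.one_mul, Matrix.mul_one]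
        · have h5 : Killed (gam (rx e' (gramMinus m' F a b) (det_gramMinus_ne_zero h2 m' hab))) :=
            Killed.of_rx e' _ _ (hT.minus h2 m' a b (by omega) hab _ rfl)
          refine Killed.of_congr P⁻¹ one_ne_zero ?_ h5
          rw [hP, one_smul]
          have e1 : ((P⁻¹ : GL (Fin n) F) : Matrix (Fin n) (Fin n) F)ᵀ * (P : Matrix (Fin n) (Fin n) F)ᵀ = 1 := by
            rw [← transpose_mul, ← Units.val_mul, mul_inv_cancel, Units.val_one, transpose_one]
          have e2 : (P : Matrix (Fin n) (Fin n) F) * ((P⁻¹ : GL (Fin n) F) : Matrix (Fin n) (Fin n) F) = 1 := by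
            rw [← Units.val_mul, mul_inv_cancel, Units.val_one]
          calc _ = (((P⁻¹ : GL (Fin n) F) : Matrix (Fin n) (Fin n) F)ᵀ * (P : Matrix (Fin n) (Fin n) F)ᵀ) *
                (rx e' (gramMinus m' F a b) (det_gramMinus_ne_zero h2 m' hab) : Matrix (Fin n) (Fin n) F) *
                ((P : Matrix (Fin n) (Fin n) F) * ((P⁻¹ : GL (Fin n) F) : Matrix (Fin n) (Fin n) F)) := by
                simp only [Matrix.mul_assoc]
            _ = _ := by rw [e1, e2, Matrix.one_mul, Matrix.mul_one]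
      · exact hS (bil_self_of_skew h2 h) hm
  · -- odd dimension
    have hgr : ∀ C : GL (Fin n) F, (C : Matrix (Fin n) (Fin n) F)ᵀ = C → IsGraphAutClassPSL (gam C) ∧
        orderOf (gam C) = 2 := fun C hC => ⟨(isGraph_iff hn).2 ⟨C, rfl⟩, (orderOf_gam' hn C).2 (Or.inl hC)⟩
    have hBo : orderOf (gam B) = 2 := (orderOf_gam' hn B).2 hB
    have hconj : ∀ C : GL (Fin n) F, (C : Matrix (Fin n) (Fin n) F)ᵀ = C →
        IsConjUnder (inndiagPSL n F) (gam C) (gam B) := fun C hC =>
      (S2699.result (F := F) (p := p) (f := k) hk k.2 hn hm (gam C) (gam B) (hgr C hC).1 (hgr C hC).2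
        ((isGraph_iff hn).2 ⟨B, rfl⟩) hBo).2
    have e : Fin n ≃ Unit ⊕ (Fin m ⊕ Fin m) := Fintype.equivOfCardEq (by simp; omega)
    by_cases h2 : (2 : F) = 0
    · have hc2 : CharP F 2 := CharTwo.of_one_ne_zero_of_two_eq_zero one_ne_zero h2
      have hneg : ∀ a : F, -a = a := fun a => by
        have : a + a = 0 := by rw [← two_mul, h2, zero_mul]
        exact neg_eq_of_add_eq_zero_left this
      refine Killed.of_conjUnder (hconj (rx e _ (det_one_J_ne_zero m)) ?_)
        (Killed.of_rx e _ _ (hT.P1 hc2 m hm _ rfl))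
      rw [rx_transpose, coe_rx, fromBlocks_transpose, transpose_zero, transpose_zero, transpose_one,
        J_transpose]
      congr 2
      ext i j
      rw [Matrix.neg_apply, hneg]
    · refine Killed.of_conjUnder (hconj (rx e _ (det_gramOdd_ne_zero h2 m)) ?_)
        (Killed.of_rx e _ _ (hT.odd h2 m hm _ rfl))
      rw [rx_transpose, coe_rx, gramOdd_transpose]

/-- all involutory dualities are killed -/
theorem killed_dual (hn : 3 ≤ n) (hT : Types n F)
    (t : MulAut (Matrix.ProjectiveSpecialLinearGroup (Fin n) F))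
    (ht : t ∉ gammaPSL n F) (ht2 : t * t = 1) : Killed t := by
  rcases dual_cases hn t ht ht2 with ⟨B, rfl, hB⟩ | ⟨σ, hσ, h⟩
  · exact killed_gam hn hT B hB
  · obtain ⟨q, hq, hσq⟩ := card_sq hσ
    exact Killed.of_conjUnder h (hT.U q σ hq hσq)

end main

end Cfsg.Agent.H384.RC
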