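import Mathlib
import Cfsg.Agent.H384.RC.KRule
import Cfsg.Agent.H610.RC.AltSmall
import Cfsg.Agent.H106.RC.Ari
import Cfsg.Agent.H106.RC.Red
import Cfsg.Agent.H262.Rx.Name
import Cfsg.Agent.H686.CgPsp
import Cfsg.Agent.S0270
import Cfsg.Agent.S0283
import Cfsg.Agent.H277.CS.PslSub
import Cfsg.Agent.LieClassical.SLGen
import Cfsg.Agent.LieClassical.HermPerfect
import Cfsg.Agent.TwoFusion.SLTwoFacts

/-!
# S3510 part B: instances from the induction hypothesis (helper384)
-/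

set_option autoImplicit false

namespace Cfsg.Agent.H384.RC

open Matrix Cfsg
open Cfsg.Agent.H106.RC
open Cfsg.Agent.H610.RC

theorem not_comm_of_perfect {G : Type*} [Group G] (hs : IsSimpleGroup G)
    (h : commutator G = ⊤) : ¬ IsMulCommutative G := by
  intro hc
  have := hs
  have h5 : commutator G = ⊥ := by
    rw [commutator_eq_bot_iff_center_eq_top, Subgroup.eq_top_iff']
    intro x
    rw [Subgroup.mem_center_iff]
    exact fun y => hc.is_comm.comm y x
  rw [h] at h5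
  exact top_ne_bot h5

theorem commutator_quot {G : Type*} [Group G] (N : Subgroup G) [N.Normal] (h : commutator G = ⊤) :
    commutator (G ⧸ N) = ⊤ := by
  rw [commutator_def] at h ⊢
  have h1 := Subgroup.map_commutator (⊤ : Subgroup G) ⊤ (QuotientGroup.mk' N)
  rw [h, ← MonoidHom.range_eq_map, MonoidHom.range_eq_top.2 (QuotientGroup.mk'_surjective N)] at h1
  exact h1.symm

theorem card_alt8 : Nat.card (alternatingGroup (Fin 8)) = 20160 := by
  have := card_alt 8 (by norm_num)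
  have h : (8 : ℕ).factorial = 40320 := rfl
  omega

theorem not_a8_of_card {Q : Type*} [Group Q] (h : Nat.card Q ≠ 20160) :
    ¬ Nonempty (Q ≃* alternatingGroup (Fin 8)) := by
  rintro ⟨e⟩
  exact h ((Nat.card_congr e.toEquiv).trans card_alt8)

section

variable {N : ℕ} {F : Type} [Field F] [Fintype F]

theorem psl2_facts (hq : 4 ≤ Fintype.card F) :
    IsSimpleGroup (Matrix.ProjectiveSpecialLinearGroup (Fin 2) F) ∧
      ¬ IsMulCommutative (Matrix.ProjectiveSpecialLinearGroup (Fin 2) F) := by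
  have h1 : IsSimpleGroup (Matrix.ProjectiveSpecialLinearGroup (Fin 2) F) :=
    TwoFusion.SLTwoFacts.isSimpleGroup_psl (by omega)
  exact ⟨h1, not_comm_of_perfect h1 (commutator_quot _ (TwoFusion.SLTwoFacts.commutator_eq_top (by omega)))⟩

theorem rco_psl2 (hIH : IH N) (hq : 4 ≤ Fintype.card F)
    (hlt : Nat.card (Matrix.ProjectiveSpecialLinearGroup (Fin 2) F) < N) :
    RCo (Matrix.ProjectiveSpecialLinearGroup (Fin 2) F) := by
  obtain ⟨h1, h2⟩ := psl2_facts hq
  have hfin : Finite (Matrix.ProjectiveSpecialLinearGroup (Fin 2) F) := inferInstance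
  refine rco_ih hIH h1 h2 (Or.inl ⟨F, _, _, 2, le_rfl, fun _ => hq, ⟨MulEquiv.refl _⟩⟩) ?_ hlt
  intro h8
  have h3 := psl_exc (F := F) (n := 2) le_rfl (Or.inr (Or.inr h8))
  have h4 : Nat.card (Matrix.ProjectiveSpecialLinearGroup (Fin 2) F) = 20160 := by
    obtain ⟨e⟩ := h8
    exact (Nat.card_congr e.toEquiv).trans card_alt8
  have h5 := Cfsg.Agent.H277.CS.card_psl (F := F) rfl (n := 2) le_rfl
  rw [h4] at h5
  rcases h3 with ⟨-, h3 | h3 | h3⟩ | ⟨h3, -⟩
  · rw [h3] at h5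
    norm_num at h5
  · rw [h3] at h5
    norm_num at h5
  · rw [h3] at h5
    norm_num at h5
  · omega

theorem rc_psp (hIH : IH N) {m : ℕ} (hm : 2 ≤ m) (hne : ¬ (m = 2 ∧ Fintype.card F = 2))
    (hlt : Nat.card (PSp m F) < N) : RC (PSp m F) := by
  have h3 : m = 2 → 3 ≤ Fintype.card F := fun h => by
    have : Fintype.card F ≠ 2 := fun h' => hne ⟨h, h'⟩
    have h7 : 1 < Fintype.card F := Fintype.one_lt_card
    omega
  have hfin : Finite (PSp m F) := inferInstance
  exact hIH (PSp m F) (S0270.result m hm h3) (Cfsg.Agent.H686.CgPsp.psp_nonab hm h3)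
    (Or.inr (Or.inl ⟨F, _, _, m, hm, h3, ⟨MulEquiv.refl _⟩⟩)) (psp_not_exc hm h3) hlt

theorem rco_psp_one (hIH : IH N) (hq : 4 ≤ Fintype.card F) : IsSimpleGroup (PSp 1 F) ∧
    ¬ IsMulCommutative (PSp 1 F) ∧ (Nat.card (PSp 1 F) < N → RCo (PSp 1 F)) := by
  let e : PSp 1 F ≃* Matrix.ProjectiveSpecialLinearGroup (Fin 2) F := Cfsg.Agent.H262.Rx.pspOne F
  obtain ⟨h1, h2⟩ := psl2_facts hq
  refine ⟨isSimple_cgr e.symm h1, notComm_cgr e.symm h2, fun h => ?_⟩
  exact (rco_psl2 hIH hq ((Nat.card_congr e.toEquiv) ▸ h)).congr e.symm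

theorem rco_psu (hIH : IH N) {n q : ℕ} (hq : Fintype.card F = q ^ 2) (hn : 3 ≤ n)
    (hne : ¬ (n = 3 ∧ q = 2)) (hlt : Nat.card (PSU n F q) < N) : RCo (PSU n F q) := by
  have hs : IsSimpleGroup (PSU n F q) := S0283.result hq n hn hne
  have hfin : Finite (PSU n F q) := inferInstance
  refine RCo.of_RC (hIH (PSU n F q) hs (not_comm_of_perfect hs (commutator_quot _
    (Cfsg.Agent.LieClassical.HermPerfect.commutator_SU_eq_top hq hn hne)))
    (Or.inr (Or.inr (Or.inl ⟨F, _, _, n, q, hq, hn, hne, ⟨MulEquiv.refl _⟩⟩)))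
    (psu_not_exc hq hn hne) hlt)

theorem rc_psl32 (hIH : IH N) (hlt : 168 < N) :
    RC (Matrix.ProjectiveSpecialLinearGroup (Fin 3) (ZMod 2)) := by
  have hs : IsSimpleGroup (Matrix.ProjectiveSpecialLinearGroup (Fin 3) (ZMod 2)) :=
    Cfsg.Agent.LieClassical.SLGen.psl_isSimpleGroup (by simp)
  have hc : Nat.card (Matrix.ProjectiveSpecialLinearGroup (Fin 3) (ZMod 2)) = 168 := by
    have h3 := Cfsg.Agent.H277.CS.card_psl (F := ZMod 2) (q := 2) (by rfl) (n := 3) (by norm_num)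
    have h4 : Nat.gcd 3 (2 - 1) = 1 := by decide
    have h5 : 2 ^ (3 * (3 - 1) / 2) * ∏ i ∈ Finset.range (3 - 1), (2 ^ (i + 2) - 1) = 168 := by decide
    rw [h4, h5, one_mul] at h3
    exact h3
  have hfin : Finite (Matrix.ProjectiveSpecialLinearGroup (Fin 3) (ZMod 2)) := inferInstance
  have : Fact (Nat.Prime 2) := ⟨Nat.prime_two⟩
  have hsc : Cl (Matrix.ProjectiveSpecialLinearGroup (Fin 3) (ZMod 2)) :=
    Or.inl ⟨ZMod 2, (inferInstance : Field (ZMod 2)), (inferInstance : Fintype (ZMod 2)), 3,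
      by norm_num, fun h => absurd h (by norm_num), ⟨MulEquiv.refl _⟩⟩
  refine hIH (Matrix.ProjectiveSpecialLinearGroup (Fin 3) (ZMod 2)) hs
    (not_comm_of_perfect hs (commutator_quot _
      (Cfsg.Agent.LieClassical.SLGen.commutator_eq_top (by simp)))) hsc ?_ (by rw [hc]; exact hlt)
  intro h
  rcases psl_exc (F := ZMod 2) (n := 3) (by norm_num) h with ⟨h, -⟩ | ⟨h, -⟩
  · omega
  · omega

end

end Cfsg.Agent.H384.RC
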