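import Mathlib
import Cfsg.Agent.LieClassical.OrthTrans
import Cfsg.Agent.H452.RC.FMPa

/-!
# Rotations of anisotropic planes over a finite field (helper384; S3510 triality type iii, BOX R)

`Coord Q P c j` : `j : P → K` (`K` the algebraic closure) identifies the plane `P` with the field of `q²` elements,
`Q v = c N (j v)`, `N x = x φ x`, `φ` the Frobenius map of `F`.
-/

set_option autoImplicit false

namespace Cfsg.Agent.H384.RC.RotP

open Module QuadraticMap Polynomial
open Cfsg.Agent.LieClassical.OrthCore Cfsg.Agent.LieClassical.OrthTrans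

section field

variable (F : Type*) [Field F] [Fintype F]

/-- the algebraic closure -/
abbrev KK : Type _ := AlgebraicClosure F

/-- the Frobenius map -/
noncomputable def fr : KK F →ₐ[F] KK F := FiniteField.frobeniusAlgHom F (KK F)

variable {F}

theorem fr_apply (x : KK F) : fr F x = x ^ Fintype.card F := rfl

theorem fr_inj {x y : KK F} (h : fr F x = fr F y) : x = y := (fr F).injective h

theorem mem_range {x : KK F} (hx : fr F x = x) : ∃ y : F, algebraMap F (KK F) y = x := by
  classical
  rw [fr_apply] at hx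
  have hne : (X ^ Fintype.card F - X : (KK F)[X]) ≠ 0 :=
    FiniteField.X_pow_card_sub_X_ne_zero (KK F) Fintype.one_lt_card
  have hsub : (Finset.univ.image (algebraMap F (KK F))) ⊆ (X ^ Fintype.card F - X : (KK F)[X]).roots.toFinset := by
    intro y hy
    rw [Finset.mem_image] at hy
    obtain ⟨z, -, rfl⟩ := hy
    rw [Multiset.mem_toFinset, mem_roots hne, IsRoot.def, eval_sub, eval_pow, eval_X, ← map_pow,
      FiniteField.pow_card, sub_self]
  have hcard : (X ^ Fintype.card F - X : (KK F)[X]).roots.toFinset.card ≤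
      (Finset.univ.image (algebraMap F (KK F))).card := by
    rw [Finset.card_image_of_injective _ (algebraMap F (KK F)).injective, Finset.card_univ]
    refine (Multiset.toFinset_card_le _).trans ((card_roots' _).trans ?_)
    rw [FiniteField.X_pow_card_sub_X_natDegree_eq (KK F) Fintype.one_lt_card]
  have heq := Finset.eq_of_subset_of_card_le hsub hcard
  have hmem : x ∈ (X ^ Fintype.card F - X : (KK F)[X]).roots.toFinset := by
    rw [Multiset.mem_toFinset, mem_roots hne, IsRoot.def, eval_sub, eval_pow, eval_X, hx, sub_self]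
  rw [← heq, Finset.mem_image] at hmem
  obtain ⟨y, -, hy⟩ := hmem
  exact ⟨y, hy⟩

theorem fr_algebraMap (a : F) : fr F (algebraMap F (KK F) a) = algebraMap F (KK F) a := (fr F).commutes a

/-- coordinates with respect to `1`, `θ` -/
theorem exists_ab {θ : KK F} (h1 : fr F (fr F θ) = θ) (h2 : fr F θ ≠ θ) {x : KK F} (hx : fr F (fr F x) = x) :
    ∃ a b : F, x = algebraMap F (KK F) a + algebraMap F (KK F) b * θ := by
  have h3 : θ - fr F θ ≠ 0 := fun h => h2 (sub_eq_zero.1 h).symm
  have h4 : fr F θ - θ ≠ 0 := fun h => h2 (sub_eq_zero.1 h)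
  obtain ⟨b, hb⟩ := mem_range (x := (x - fr F x) / (θ - fr F θ)) (by
    rw [map_div₀, map_sub, map_sub, h1, hx, div_eq_div_iff h4 h3]
    ring)
  have hb' : algebraMap F (KK F) b * (θ - fr F θ) = x - fr F x := by
    rw [hb, div_mul_cancel₀ _ h3]
  obtain ⟨a, ha⟩ := mem_range (x := x - algebraMap F (KK F) b * θ) (by
    rw [map_sub, map_mul, fr_algebraMap]
    linear_combination hb')
  exact ⟨a, b, by rw [ha]; ring⟩

/-- a primitive root of unity of order `l ∣ q + 1` -/
theorem exists_zeta {l : ℕ} (hl : l.Prime) (hl2 : l ≠ 2) (hlq : l ∣ Fintype.card F + 1) :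
    ∃ ζ : KK F, IsPrimitiveRoot ζ l ∧ ζ * fr F ζ = 1 ∧ fr F ζ ≠ ζ := by
  obtain ⟨n, hp, hn⟩ := FiniteField.card F (ringChar F)
  have hlF : ((l : ℕ) : KK F) ≠ 0 := by
    intro h
    have h1 : ((l : ℕ) : F) = 0 := by
      apply (algebraMap F (KK F)).injective
      rw [map_natCast, h, map_zero]
    have h2 : ringChar F ∣ l := (ringChar.spec F l).1 h1
    have h3 : ringChar F = l := (Nat.prime_dvd_prime_iff_eq hp hl).1 h2
    have h4 : l ∣ Fintype.card F := by
      rw [hn, h3]
      exact dvd_pow_self l n.2.ne'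
    exact hl.one_lt.ne' (Nat.dvd_one.1 ((Nat.dvd_add_right h4).1 hlq))
  have hne : NeZero ((l : ℕ) : KK F) := ⟨hlF⟩
  obtain ⟨ζ, hζ⟩ := IsAlgClosed.exists_root (cyclotomic l (KK F))
    (degree_cyclotomic_pos l _ hl.pos).ne'
  have hpr : IsPrimitiveRoot ζ l := isRoot_cyclotomic_iff.1 hζ
  refine ⟨ζ, hpr, ?_, ?_⟩
  · rw [fr_apply, ← pow_succ']
    obtain ⟨m, hm⟩ := hlq
    rw [hm, pow_mul, hpr.pow_eq_one, one_pow]
  · intro h
    have h1 : ζ * ζ = 1 := by
      have : ζ * fr F ζ = 1 := by
        rw [fr_apply, ← pow_succ']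
        obtain ⟨m, hm⟩ := hlq
        rw [hm, pow_mul, hpr.pow_eq_one, one_pow]
      rwa [h] at this
    have h2 : l ∣ 2 := hpr.dvd_of_pow_eq_one 2 (by rw [pow_two, h1])
    exact hl2 ((Nat.prime_dvd_prime_iff_eq hl Nat.prime_two).1 h2)

end field

section coord

variable {F V : Type*} [Field F] [Fintype F] [AddCommGroup V] [Module F V]

/-- coordinates of an anisotropic plane -/
structure Coord (Q : QuadraticForm F V) (P : Submodule F V) (c : F) (θ : KK F) (j : P →ₗ[F] KK F) : Prop where
  c0 : c ≠ 0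
  inj : Function.Injective j
  img : ∀ x : KK F, fr F (fr F x) = x → ∃ v, j v = x
  fix : ∀ v, fr F (fr F (j v)) = j v
  nrm : ∀ v : P, algebraMap F (KK F) (Q v) = algebraMap F (KK F) c * (j v * fr F (j v))
  th1 : fr F (fr F θ) = θ
  th2 : fr F θ ≠ θ

theorem exists_coord {Q : QuadraticForm F V} {P : Submodule F V} (h2 : finrank F P = 2)
    (ha : ∀ v ∈ P, Q v = 0 → v = 0) : ∃ (c : F) (θ : KK F) (j : P →ₗ[F] KK F), Coord Q P c θ j := by
  classical
  have hfd : Module.Finite F P := Module.finite_of_finrank_pos (by omega)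
  let b : Basis (Fin 2) F P := Module.finBasisOfFinrankEq F P h2
  set v : V := ((b 0 : P) : V) with hv
  set w : V := ((b 1 : P) : V) with hw
  have hv0 : v ≠ 0 := fun h => b.ne_zero 0 (Subtype.ext h)
  have hc : Q v ≠ 0 := fun h => hv0 (ha v (b 0).2 h)
  have hrep : ∀ x : P, x = b.repr x 0 • b 0 + b.repr x 1 • b 1 := by
    intro x
    conv_lhs => rw [← b.sum_repr x]
    rw [Fin.sum_univ_two]
  set c := Q v with hcdef
  set t := polar Q v w / c with ht
  set n := Q w / c with hn
  have htc : polar Q v w = c * t := by rw [ht, mul_div_cancel₀ _ hc]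
  have hnc : Q w = c * n := by rw [hn, mul_div_cancel₀ _ hc]
  -- the polynomial has no root in `F`
  have hroot : ∀ r : F, r * r - t * r + n ≠ 0 := by
    intro r hr
    have h3 : Q (w - r • v) = 0 := by
      have e : Q (w - r • v) = Q w + r * r * Q v - r * polar Q v w := by
        rw [sub_eq_add_neg, ← neg_smul]
        have e1 : Q (w + (-r) • v) = Q w + Q ((-r) • v) + polar Q w ((-r) • v) := by
          rw [polar]; ring
        rw [e1, QuadraticMap.map_smul, polar_smul_right, polar_comm Q w v]
        simp only [smul_eq_mul]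
        ring
      rw [e, htc, hnc, ← hcdef]
      linear_combination c * hr
    have h4 : w - r • v ∈ P := P.sub_mem (b 1).2 (P.smul_mem r (b 0).2)
    have h5 := ha _ h4 h3
    have h6 : b 1 = r • b 0 := Subtype.ext (sub_eq_zero.1 h5)
    have h7 := congrArg (fun x => b.repr x 1) h6
    simp at h7
  -- a root in `K`
  obtain ⟨θ, hθ⟩ := IsAlgClosed.exists_root (X ^ 2 - C (algebraMap F (KK F) t) * X + C (algebraMap F (KK F) n) : (KK F)[X])
    (by
      have : (X ^ 2 - C (algebraMap F (KK F) t) * X + C (algebraMap F (KK F) n) : (KK F)[X]).degree = 2 := by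
        compute_degree!
      rw [this]; norm_num)
  have hθ2 : θ * θ = algebraMap F (KK F) t * θ - algebraMap F (KK F) n := by
    rw [IsRoot.def, eval_add, eval_sub, eval_pow, eval_X, eval_mul, eval_C, eval_X, eval_C] at hθ
    linear_combination hθ
  have hth2 : fr F θ ≠ θ := by
    intro h
    obtain ⟨r, hr⟩ := mem_range h
    apply hroot r
    apply (algebraMap F (KK F)).injective
    rw [map_add, map_sub, map_mul, map_mul, hr, map_zero]
    linear_combination hθ2
  have hsum : fr F θ = algebraMap F (KK F) t - θ := by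
    have e1 : fr F θ * fr F θ = algebraMap F (KK F) t * fr F θ - algebraMap F (KK F) n := by
      rw [← map_mul, hθ2, map_sub, map_mul, fr_algebraMap, fr_algebraMap]
    have e2 : (fr F θ - θ) * (fr F θ + θ - algebraMap F (KK F) t) = 0 := by
      linear_combination e1 - hθ2
    rcases mul_eq_zero.1 e2 with h | h
    · exact absurd (sub_eq_zero.1 h) hth2
    · linear_combination h
  have hprod : θ * fr F θ = algebraMap F (KK F) n := by
    rw [hsum]
    linear_combination -hθ2
  have hth1 : fr F (fr F θ) = θ := by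
    rw [hsum, map_sub, fr_algebraMap, hsum]
    ring
  let j : P →ₗ[F] KK F := b.constr F ![1, θ]
  have hj0 : j (b 0) = 1 := by simp [j]
  have hj1 : j (b 1) = θ := by simp [j]
  have hj : ∀ x : P, j x = algebraMap F (KK F) (b.repr x 0) + algebraMap F (KK F) (b.repr x 1) * θ := by
    intro x
    conv_lhs => rw [hrep x]
    rw [map_add, map_smul, map_smul, hj0, hj1, Algebra.smul_def, Algebra.smul_def, mul_one]
  refine ⟨c, θ, j, hc, ?_, ?_, ?_, ?_, hth1, hth2⟩
  · rw [injective_iff_map_eq_zero]
    intro x hx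
    rw [hj] at hx
    have hb0 : b.repr x 1 = 0 := by
      by_contra hne
      have hne' : algebraMap F (KK F) (b.repr x 1) ≠ 0 := (_root_.map_ne_zero _).2 hne
      apply hth2
      have h3 := congrArg (fr F) hx
      rw [map_add, map_mul, fr_algebraMap, fr_algebraMap, map_zero (fr F)] at h3
      apply mul_left_cancel₀ hne'
      linear_combination h3 - hx
    rw [hb0, map_zero (algebraMap F (KK F)), zero_mul, add_zero] at hx
    have ha0 : b.repr x 0 = 0 := (_root_.map_eq_zero _).1 hx
    rw [hrep x, hb0, ha0, zero_smul, zero_smul, add_zero]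
  · intro x hx
    obtain ⟨a, b', hab⟩ := exists_ab hth1 hth2 hx
    refine ⟨a • b 0 + b' • b 1, ?_⟩
    rw [map_add, map_smul, map_smul, hj0, hj1, Algebra.smul_def, Algebra.smul_def, mul_one, hab]
  · intro x
    rw [hj, map_add, map_mul, fr_algebraMap, fr_algebraMap, map_add, map_mul, fr_algebraMap, fr_algebraMap, hth1]
  · intro x
    have e : Q (x : V) = c * (b.repr x 0 * b.repr x 0 + b.repr x 0 * b.repr x 1 * t +
        b.repr x 1 * b.repr x 1 * n) := by
      conv_lhs => rw [hrep x]
      have e1 : Q (((b.repr x 0 • b 0 + b.repr x 1 • b 1 : P)) : V) =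
          Q (b.repr x 0 • v) + Q (b.repr x 1 • w) + polar Q (b.repr x 0 • v) (b.repr x 1 • w) := by
        rw [polar]
        push_cast
        ring
      rw [e1, QuadraticMap.map_smul, QuadraticMap.map_smul, polar_smul_left, polar_smul_right, htc, hnc, ← hcdef]
      simp only [smul_eq_mul]
      ring
    rw [e, hj]
    simp only [map_mul, map_add, fr_algebraMap]
    rw [← hprod]
    have h9 : algebraMap F (KK F) t = fr F θ + θ := by rw [hsum]; ring
    rw [h9]
    ring

variable {Q : QuadraticForm F V} {P : Submodule F V} {c : F} {θ : KK F} {j : P →ₗ[F] KK F}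

/-- isometries of the plane -/
theorem Coord.iso (h : Coord Q P c θ j) (g : P →ₗ[F] P) (hg : ∀ v, Q (g v : V) = Q (v : V)) :
    ∃ γ : KK F, γ * fr F γ = 1 ∧ ((∀ v, j (g v) = γ * j v) ∨ ∀ v, j (g v) = γ * fr F (j v)) := by
  have hcK : algebraMap F (KK F) c ≠ 0 := (_root_.map_ne_zero _).2 h.c0
  have hN : ∀ v, j (g v) * fr F (j (g v)) = j v * fr F (j v) := by
    intro v
    apply mul_left_cancel₀ hcK
    rw [← h.nrm, ← h.nrm, hg]
  obtain ⟨v1, hv1⟩ := h.img 1 (by rw [map_one, map_one])
  obtain ⟨w1, hw1⟩ := h.img θ h.th1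
  set γ := j (g v1) with hγ
  have hγ1 : γ * fr F γ = 1 := by
    rw [hγ, hN, hv1, map_one, mul_one]
  have hγ0 : γ ≠ 0 := left_ne_zero_of_mul_eq_one hγ1
  have hγ2 : fr F (fr F γ) = γ := h.fix _
  set y := j (g w1) * fr F γ with hy
  have hgy : j (g w1) = γ * y := by
    rw [hy]
    calc j (g w1) = j (g w1) * (γ * fr F γ) := by rw [hγ1, mul_one]
      _ = _ := by ring
  have hNy : y * fr F y = θ * fr F θ := by
    have h1 := hN w1
    rw [hgy, hw1, map_mul] at h1
    calc y * fr F y = (γ * fr F γ) * (y * fr F y) := by rw [hγ1, one_mul]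
      _ = _ := by rw [← h1]; ring
  have hTy : y + fr F y = θ + fr F θ := by
    have h1 := hN (v1 + w1)
    rw [map_add g, map_add j, map_add j, hgy, hv1, hw1, ← hγ, map_add (fr F), map_add (fr F), map_mul, map_one] at h1
    have h2 : (γ + γ * y) * (fr F γ + fr F γ * fr F y) = (γ * fr F γ) * ((1 + y) * (1 + fr F y)) := by ring
    rw [h2, hγ1, one_mul] at h1
    linear_combination h1 - hNy
  have hcase : y = θ ∨ y = fr F θ := by
    have h1 : (y - θ) * (y - fr F θ) = 0 := by
      linear_combination y * hTy - hNy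
    rcases mul_eq_zero.1 h1 with h | h
    · exact Or.inl (sub_eq_zero.1 h)
    · exact Or.inr (sub_eq_zero.1 h)
  refine ⟨γ, hγ1, ?_⟩
  have hgen : ∀ v, ∃ a b : F, j v = algebraMap F (KK F) a + algebraMap F (KK F) b * θ ∧
      j (g v) = γ * (algebraMap F (KK F) a + algebraMap F (KK F) b * y) := by
    intro v
    obtain ⟨a, b, hab⟩ := exists_ab h.th1 h.th2 (h.fix v)
    refine ⟨a, b, hab, ?_⟩
    have hv : v = a • v1 + b • w1 := by
      apply h.inj
      rw [hab, map_add, map_smul, map_smul, hv1, hw1, Algebra.smul_def, Algebra.smul_def, mul_one]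
    rw [hv, map_add, map_smul, map_smul, map_add, map_smul, map_smul, hgy, ← hγ, Algebra.smul_def,
      Algebra.smul_def]
    ring
  rcases hcase with hc | hc
  · left
    intro v
    obtain ⟨a, b, h1, h2⟩ := hgen v
    rw [h2, h1, hc]
  · right
    intro v
    obtain ⟨a, b, h1, h2⟩ := hgen v
    rw [h2, h1, hc, map_add, map_mul, fr_algebraMap, fr_algebraMap]

/-- the rotation by `ζ` -/
noncomputable def Coord.rot (h : Coord Q P c θ j) (ζ : KK F) (hζ : ζ * fr F ζ = 1) : P ≃ₗ[F] P := by
  have h2 : fr F (fr F ζ) = ζ := by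
    have h3 := congrArg (fr F) hζ
    rw [map_mul, map_one] at h3
    have h0 : fr F ζ ≠ 0 := right_ne_zero_of_mul_eq_one hζ
    apply mul_left_cancel₀ h0
    rw [h3, mul_comm, hζ]
  have hm : ∀ v : P, ∃ w : P, j w = ζ * j v := fun v => h.img _ (by
    rw [map_mul, map_mul, h2, h.fix])
  have hm' : ∀ v : P, ∃ w : P, j w = fr F ζ * j v := fun v => h.img _ (by
    rw [map_mul, map_mul, h2, h.fix])
  exact
    { toFun := fun v => (hm v).choose
      map_add' := fun v w => h.inj (by
        rw [(hm _).choose_spec, map_add, map_add, (hm _).choose_spec, (hm _).choose_spec, mul_add])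
      map_smul' := fun a v => h.inj (by
        rw [(hm _).choose_spec, map_smul, RingHom.id_apply, map_smul, (hm _).choose_spec, mul_smul_comm])
      invFun := fun v => (hm' v).choose
      left_inv := fun v => h.inj (by
        rw [(hm' _).choose_spec, (hm _).choose_spec, ← mul_assoc, mul_comm (fr F ζ), hζ, one_mul])
      right_inv := fun v => h.inj (by
        rw [(hm _).choose_spec, (hm' _).choose_spec, ← mul_assoc, hζ, one_mul]) }

theorem Coord.j_rot (h : Coord Q P c θ j) (ζ : KK F) (hζ : ζ * fr F ζ = 1) (v : P) :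
    j (h.rot ζ hζ v) = ζ * j v := by
  unfold Coord.rot
  exact Exists.choose_spec (p := fun w => j w = ζ * j v) _

end coord

end Cfsg.Agent.H384.RC.RotP
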