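import Mathlib
import Cfsg.Agent.H384.RC.Class
import Cfsg.Agent.S0270
import Cfsg.Agent.H277.CS.PslSub
import Cfsg.Agent.H686.CgPsp
import Cfsg.Agent.H384.RC.Inst
import Cfsg.Agent.H212.RC.KilledS
import Cfsg.Agent.H442.RC.KilledU
import Cfsg.Agent.H679.RC.OrthPol
import Cfsg.Agent.H287.RC.KilledP1
import Cfsg.Agent.H837.RC.KilledP2
import Cfsg.Agent.H686.RC.K52
import Cfsg.Agent.H815.RC.OFour
import Cfsg.Agent.H417.RC.BThreeThree
import Cfsg.Agent.H25.RC.FourThree
import Cfsg.Agent.H388.RC.B34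
import Cfsg.Agent.H451.RC.InstMinus
import Cfsg.Agent.H451.RC.InstOdd

/-!
# S3510 part B: all standard forms are killed, from the induction hypothesis (helper384)
-/

set_option autoImplicit false

namespace Cfsg.Agent.H384.RC

open Matrix Cfsg
open Cfsg.Agent.H106.RC
open Cfsg.Agent.ClassicalGeometry.AutPSL.Auto
open Cfsg.Agent.H999.PslGraph Cfsg.Agent.H999.PslGraphClasses Cfsg.Agent.H999.PslGraphTwo
open Cfsg.Agent.H999.PslGraphOdd
open Cfsg.Agent.H212.RC (killed_S)
open Cfsg.Agent.H442.RC.KU (killed_U)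
open Cfsg.Agent.H679.RC (killed_O)
open Cfsg.Agent.H287.RC (killed_P1)
open Cfsg.Agent.H837.RC.KilledP2 (killed_P2)
open Cfsg.Agent.H686.RC.K52 (killed_52)
open Cfsg.Agent.H815.RC (killed_O4)
open Cfsg.Agent.H417.RC (killed_33)
open Cfsg.Agent.H25.RC (killed_43)
open Cfsg.Agent.H388.RC34 (killed_34)
open Cfsg.Agent.H451.RC (inst_minus inst_odd inst_plus)

section card

variable {F : Type} [Field F] [Fintype F] {n : ℕ}

theorem card_psl_eq {κ : Type} [Fintype κ] [DecidableEq κ] (h : Fintype.card κ = n) :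
    Nat.card (Matrix.ProjectiveSpecialLinearGroup κ F) =
      Nat.card (Matrix.ProjectiveSpecialLinearGroup (Fin n) F) :=
  Nat.card_congr (rePSL (Fintype.equivFinOfCardEq h)).toEquiv

theorem aniso_two {a b : F} (hab : ∀ z₁ z₂ : F, z₁ ^ 2 + a * z₁ * z₂ + b * z₂ ^ 2 = 0 → z₁ = 0 ∧ z₂ = 0) :
    b ≠ 0 := by
  rintro rfl
  have := (hab 0 1 (by ring)).2
  exact one_ne_zero this

end card

section small

variable {F : Type} [Field F] [Fintype F]

/-- the form on `F^2 ⊗ F^2` and `gramPlus 2` -/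
theorem plus_of_kron (h : ∀ B : GL (Fin 2 × Fin 2) F,
      (B : Matrix (Fin 2 × Fin 2) (Fin 2 × Fin 2) F) =
        Matrix.kroneckerMap (· * ·) !![0, 1; -1, 0] !![0, 1; -1, 0] → Killed (gam B))
    (B : GL (Fin 2 ⊕ Fin 2) F) (hB : (B : Matrix _ _ F) = gramPlus 2 F) : Killed (gam B) := by
  let K : Matrix (Fin 2 × Fin 2) (Fin 2 × Fin 2) F :=
    Matrix.kroneckerMap (· * ·) !![0, 1; -1, 0] !![0, 1; -1, 0]
  have hK : K * K = 1 := by
    have h1 : K * K = Matrix.kroneckerMap (· * ·) (!![0, 1; -1, 0] * !![0, 1; -1, 0])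
        (!![0, 1; -1, 0] * !![0, 1; -1, 0]) := (Matrix.mul_kronecker_mul _ _ _ _).symm
    rw [h1]
    ext ⟨i, j⟩ ⟨k, l⟩
    fin_cases i <;> fin_cases j <;> fin_cases k <;> fin_cases l <;>
      simp [Matrix.mul_apply, Fin.sum_univ_two, Matrix.one_apply]
  let B' : GL (Fin 2 × Fin 2) F := ⟨K, K, hK, hK⟩
  -- the linear equivalence
  let T : (Fin 2 × Fin 2 → F) ≃ₗ[F] (Fin 2 ⊕ Fin 2 → F) :=
    { toFun := fun u => Sum.elim ![u (0, 0), u (0, 1)] ![u (1, 1), -u (1, 0)]
      invFun := fun v => fun p => !![v (.inl 0), v (.inl 1); -v (.inr 1), v (.inr 0)] p.1 p.2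
      map_add' := fun u v => by
        ext i
        rcases i with i | i <;> fin_cases i <;> simp [add_comm]
      map_smul' := fun c u => by
        ext i
        rcases i with i | i <;> fin_cases i <;> simp
      left_inv := fun u => by
        ext ⟨i, j⟩
        fin_cases i <;> fin_cases j <;> simp
      right_inv := fun v => by
        ext i
        rcases i with i | i <;> fin_cases i <;> simp }
  have hnt : Nontrivial (Fin 2 ⊕ Fin 2) := ⟨.inl 0, .inr 0, by simp⟩
  refine Killed.of_equiv B B' T one_ne_zero (fun u v => ?_) (h B' rfl)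
  rw [hB, one_mul]
  change bil (gramPlus 2 F) _ _ = bil K u v
  simp only [bil, gramPlus, dotProduct, mulVec, Fintype.sum_sum_type, Fintype.sum_prod_type,
    Fin.sum_univ_two, K, T]
  simp [Matrix.one_apply]
  ring

/-- the identity form and `gramOdd 1` for `card F = 3` -/
theorem odd_of_one (hF : Fintype.card F = 3) (h : ∀ B : GL (Fin 3) F,
      (B : Matrix (Fin 3) (Fin 3) F) = 1 → Killed (gam B))
    (B : GL (Unit ⊕ (Fin 1 ⊕ Fin 1)) F) (hB : (B : Matrix _ _ F) = gramOdd 1 F) :
    Killed (gam B) := by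
  have h3 : (3 : F) = 0 := by
    have h1 : ((Fintype.card F : ℕ) : F) = 0 := FiniteField.cast_card_eq_zero F
    rw [hF] at h1
    exact_mod_cast h1
  have h2 : (2 : F) ≠ 0 := by
    intro h
    have h1 : (3 : F) = 2 + 1 := by ring
    rw [h3, h, zero_add] at h1
    exact one_ne_zero h1.symm
  let T : (Fin 3 → F) ≃ₗ[F] (Unit ⊕ (Fin 1 ⊕ Fin 1) → F) :=
    { toFun := fun u => Sum.elim (fun _ => u 1 + u 2)
        (Sum.elim (fun _ => u 0 + u 1 + 2 * u 2) (fun _ => 2 * u 0 + u 1 + 2 * u 2))
      invFun := fun v => ![2 * v (.inr (.inl 0)) + v (.inr (.inr 0)),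
        2 * v (.inl ()) + v (.inr (.inl 0)) + v (.inr (.inr 0)),
        2 * v (.inl ()) + 2 * v (.inr (.inl 0)) + 2 * v (.inr (.inr 0))]
      map_add' := fun u v => by
        ext i
        rcases i with i | i | i <;> simp <;> ring
      map_smul' := fun c u => by
        ext i
        rcases i with i | i | i <;> simp <;> ring
      left_inv := fun u => by
        ext i
        fin_cases i
        · simp
          linear_combination (u 0 + u 1 + 2 * u 2) * h3
        · simp
          linear_combination (u 0 + u 1 + 2 * u 2) * h3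
        · simp
          linear_combination (2 * u 0 + 2 * u 1 + 3 * u 2) * h3
      right_inv := fun v => by
        ext i
        rcases i with i | i | i
        · simp
          linear_combination (v (.inl ()) + v (.inr (.inl 0)) + v (.inr (.inr 0))) * h3
        · fin_cases i
          simp
          linear_combination (2 * v (.inl ()) + 2 * v (.inr (.inl 0)) + 2 * v (.inr (.inr 0))) * h3
        · fin_cases i
          simp
          linear_combination (2 * v (.inl ()) + 3 * v (.inr (.inl 0)) + 2 * v (.inr (.inr 0))) * h3 }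
  have hnt : Nontrivial (Unit ⊕ (Fin 1 ⊕ Fin 1)) := ⟨.inl (), .inr (.inl 0), by simp⟩
  refine Killed.of_equiv B (1 : GL (Fin 3) F) T one_ne_zero (fun u v => ?_) (h 1 rfl)
  rw [hB, one_mul, Units.val_one]
  simp only [bil, gramOdd, gramPlus, dotProduct, mulVec, Fintype.sum_sum_type,
    Fin.sum_univ_three, T]
  simp [Matrix.one_apply]
  linear_combination (u 0 * v 0 + u 0 * v 1 + 2 * u 0 * v 2 + u 1 * v 0 + u 1 * v 1 +
    2 * u 1 * v 2 + 2 * u 2 * v 0 + 2 * u 2 * v 1 + 3 * u 2 * v 2) * h3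

end small

section all

variable {F : Type} [Field F] [Fintype F] {n : ℕ}

theorem card_psl2_lt_psl4 (F : Type) [Field F] [Fintype F] (h3 : 3 ≤ Fintype.card F) :
    Nat.card (Matrix.ProjectiveSpecialLinearGroup (Fin 2) F) <
      Nat.card (Matrix.ProjectiveSpecialLinearGroup (Fin 4) F) := by
  have h2 := Cfsg.Agent.H277.CS.card_psl (F := F) rfl (n := 2) le_rfl
  have h4 := Cfsg.Agent.H277.CS.card_psl (F := F) rfl (n := 4) (by norm_num)
  set q := Fintype.card F with hq
  simp only [Finset.prod_range_succ, Finset.prod_range_zero, one_mul] at h2 h4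
  norm_num at h2 h4
  set a := Nat.card (Matrix.ProjectiveSpecialLinearGroup (Fin 2) F)
  set b := Nat.card (Matrix.ProjectiveSpecialLinearGroup (Fin 4) F)
  have g2 : 0 < Nat.gcd 2 (q - 1) := Nat.gcd_pos_of_pos_left _ (by norm_num)
  have g4 : Nat.gcd 4 (q - 1) ≤ 4 := Nat.gcd_le_left _ (by norm_num)
  have ha : a ≤ q * (q ^ 2 - 1) := by
    rw [← h2]
    exact Nat.le_mul_of_pos_left _ g2
  have hb : q ^ 6 * ((q ^ 2 - 1) * (q ^ 3 - 1) * (q ^ 4 - 1)) ≤ 4 * b := by
    rw [← h4]
    exact Nat.mul_le_mul_right _ g4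
  have h9 : 9 ≤ q ^ 2 := by nlinarith
  have h27 : 27 ≤ q ^ 3 := by nlinarith
  have h81 : 81 ≤ q ^ 4 := by nlinarith
  have h5 : 4 * (q * (q ^ 2 - 1)) < q ^ 6 * ((q ^ 2 - 1) * (q ^ 3 - 1) * (q ^ 4 - 1)) := by
    obtain ⟨x, hx⟩ : ∃ x, q ^ 2 - 1 = x := ⟨_, rfl⟩
    obtain ⟨y, hy⟩ : ∃ y, q ^ 3 - 1 = y := ⟨_, rfl⟩
    obtain ⟨z, hz⟩ : ∃ z, q ^ 4 - 1 = z := ⟨_, rfl⟩
    rw [hx, hy, hz]
    have hx8 : 8 ≤ x := by omega
    have hy8 : 26 ≤ y := by omega
    have hz8 : 80 ≤ z := by omega
    have h6 : q ≤ q ^ 6 := Nat.le_self_pow (by norm_num) q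
    calc 4 * (q * x) = q * x * 4 := by ring
      _ ≤ q ^ 6 * x * 4 := Nat.mul_le_mul_right _ (Nat.mul_le_mul_right _ h6)
      _ < q ^ 6 * x * (y * z) := by
        apply Nat.mul_lt_mul_of_pos_left
        · nlinarith
        · positivity
      _ = q ^ 6 * (x * y * z) := by ring
  omega

theorem card_psl3_four (F : Type) [Field F] [Fintype F] (h : Fintype.card F = 4) :
    168 < Nat.card (Matrix.ProjectiveSpecialLinearGroup (Fin 3) F) := by
  have h3 := Cfsg.Agent.H277.CS.card_psl (F := F) h (n := 3) (by norm_num)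
  simp only [Finset.prod_range_succ, Finset.prod_range_zero, one_mul] at h3
  norm_num at h3
  omega

theorem odd_of_two_ne (h2 : (2 : F) ≠ 0) : Odd (Fintype.card F) := by
  rw [← Nat.not_even_iff_odd]
  intro h
  apply h2
  have h1 : ringChar F = 2 := (FiniteField.even_card_iff_char_two (F := F)).2 (Nat.even_iff.1 h)
  have : CharP F 2 := by rw [← h1]; exact ringChar.charP F
  exact CharTwo.two_eq_zero

theorem card_char_two [CharP F 2] : ∃ k : ℕ, 1 ≤ k ∧ Fintype.card F = 2 ^ k := by
  obtain ⟨k, -, hk⟩ := FiniteField.card F 2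
  exact ⟨k, k.2, hk⟩

theorem types (hn : 3 ≤ n) (h42 : ¬ (n = 4 ∧ Fintype.card F = 2))
    (h32 : ¬ (n = 3 ∧ Fintype.card F = 2))
    (hIH : IH (Nat.card (Matrix.ProjectiveSpecialLinearGroup (Fin n) F))) : Types n F := by
  refine ⟨?_, ?_, ?_, ?_, ?_, ?_, ?_⟩
  · -- symplectic
    intro m hm B hB
    have hne : ¬ (m = 2 ∧ Fintype.card F = 2) := fun h => h42 ⟨by omega, h.2⟩
    refine killed_S (by omega) hne (fun h => ?_) B hB
    rw [card_psl_eq (n := n) (by simp; omega)] at h
    exact RCo.of_RC (rc_psp hIH (by omega) hne h)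
  · -- orthogonal, odd dimension
    intro h2 m hm B hB
    have hodd := odd_of_two_ne h2
    by_cases h1 : m = 1 ∧ Fintype.card F = 3
    · obtain ⟨rfl, h3⟩ := h1
      exact odd_of_one h3 (fun B hB => killed_33 h3 B hB) B hB
    · have h5 : m = 1 → 5 ≤ Fintype.card F := by
        intro hm1
        have h6 : Fintype.card F ≠ 3 := fun h => h1 ⟨hm1, h⟩
        have h7 : 1 < Fintype.card F := Fintype.one_lt_card
        rcases hodd with ⟨j, hj⟩
        omega
      obtain ⟨hs, hnc, hRC⟩ := inst_odd hIH hodd (by omega : 1 ≤ m) h5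
      have hm0 : 0 < m := by omega
      refine killed_O h2 (by simp; omega) (quadFormOdd m F) B (by rw [hB, gramOdd_transpose])
        (fun v => by rw [hB]; exact bil_gramOdd m v) (Pi.single (.inr (.inl ⟨0, hm0⟩)) 1)
        (Pi.single (.inr (.inr ⟨0, hm0⟩)) 1) ?_ ?_ ?_ hs hnc (fun h => hRC ?_)
      · simp [quadFormOdd, Pi.single_apply]
      · simp [quadFormOdd, Pi.single_apply]
      · rw [hB]
        change bil _ _ _ = 1
        rw [bil_single]
        simp [gramOdd, gramPlus]
      · rwa [card_psl_eq (n := n) (by simp; omega)] at h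
  · -- plus
    intro h2 m hm B hB
    have hodd := odd_of_two_ne h2
    by_cases hm2 : m = 2
    · subst hm2
      refine plus_of_kron (fun B hB => ?_) B hB
      by_cases h3 : Fintype.card F = 3
      · exact killed_43 h3 B hB
      · have h5 : 5 ≤ Fintype.card F := by
          have h7 : 1 < Fintype.card F := Fintype.one_lt_card
          rcases hodd with ⟨j, hj⟩
          omega
        have hn4 : n = 4 := by omega
        subst hn4
        exact killed_O4 h2 h5 (rco_psl2 hIH (by omega) (card_psl2_lt_psl4 F (by omega))) B hB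
    · obtain ⟨hs, hnc, hRC⟩ := inst_plus hIH hodd (by omega : 3 ≤ m)
      have hm0 : 0 < m := by omega
      refine killed_O h2 (by simp; omega) (quadFormPlus m F) B (by rw [hB, gramPlus_transpose])
        (fun v => by rw [hB]; exact bil_gramPlus m v) (Pi.single (.inl ⟨0, hm0⟩) 1)
        (Pi.single (.inr ⟨0, hm0⟩) 1) ?_ ?_ ?_ hs hnc (fun h => hRC ?_)
      · simp [quadFormPlus, Pi.single_apply]
      · simp [quadFormPlus, Pi.single_apply]
      · rw [hB]
        change bil _ _ _ = 1
        rw [bil_single]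
        simp [gramPlus]
      · rwa [card_psl_eq (n := n) (by simp; omega)] at h
  · -- minus
    intro h2 m a b hm hab B hB
    have hodd := odd_of_two_ne h2
    obtain ⟨hs, hnc, hRC⟩ := inst_minus hIH hodd (by omega : 1 ≤ m) a b hab
    have hm0 : 0 < m := by omega
    refine killed_O h2 (by simp; omega) (quadFormMinus m F a b) B (by rw [hB, gramMinus_transpose])
      (fun v => by rw [hB]; exact bil_gramMinus m a b v) (Pi.single (.inl (.inl ⟨0, hm0⟩)) 1)
      (Pi.single (.inl (.inr ⟨0, hm0⟩)) 1) ?_ ?_ ?_ hs hnc (fun h => hRC ?_)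
    · simp [quadFormMinus, Pi.single_apply]
    · simp [quadFormMinus, Pi.single_apply]
    · rw [hB]
      change bil _ _ _ = 1
      rw [bil_single]
      simp [gramMinus, gramPlus]
    · rwa [card_psl_eq (n := n) (by simp; omega)] at h
  · -- pseudo-symplectic, odd dimension
    intro hc m hm B hB
    obtain ⟨k, hk1, hk⟩ := card_char_two (F := F)
    by_cases h52 : m = 2 ∧ Fintype.card F = 2
    · obtain ⟨rfl, h5⟩ := h52
      exact killed_52 h5 B hB
    by_cases hm1 : m = 1
    · subst hm1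
      have h4 : 4 ≤ Fintype.card F := by
        have : Fintype.card F ≠ 2 := fun h => h32 ⟨by omega, h⟩
        rw [hk] at this ⊢
        have hk2 : k ≠ 1 := by rintro rfl; exact this rfl
        calc 4 = 2 ^ 2 := rfl
          _ ≤ 2 ^ k := Nat.pow_le_pow_right two_pos (by omega)
      obtain ⟨hs, hnc, hRC⟩ := rco_psp_one hIH h4
      refine killed_P1 le_rfl hs hnc (fun h => hRC ?_) B hB
      rwa [card_psl_eq (n := n) (by simp; omega)] at h
    · have hm2 : 2 ≤ m := by omega
      have hs : IsSimpleGroup (PSp m F) := Cfsg.Agent.S0270.result m hm2 (fun h => by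
        have : Fintype.card F ≠ 2 := fun h' => h52 ⟨h, h'⟩
        have h7 : 1 < Fintype.card F := Fintype.one_lt_card
        omega)
      have hnc : ¬ IsMulCommutative (PSp m F) := Cfsg.Agent.H686.CgPsp.psp_nonab hm2 (fun h => by
        have : Fintype.card F ≠ 2 := fun h' => h52 ⟨h, h'⟩
        have h7 : 1 < Fintype.card F := Fintype.one_lt_card
        omega)
      refine killed_P1 (by omega) hs hnc (fun h => ?_) B hB
      rw [card_psl_eq (n := n) (by simp; omega)] at h
      exact RCo.of_RC (rc_psp hIH hm2 h52 h)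
  · -- pseudo-symplectic, even dimension
    intro hc m hm l hl B hB
    have hne : ¬ (m = 2 ∧ Fintype.card F = 2) := fun h => h42 ⟨by omega, h.2⟩
    refine killed_P2 (by omega) hne (fun h => ?_) l hl B hB
    rw [card_psl_eq (n := n) (by simp; omega)] at h
    exact rc_psp hIH (by omega) hne h
  · -- unitary
    intro q σ hq hσ
    by_cases h : n = 3 ∧ q = 2
    · obtain ⟨rfl, rfl⟩ := h
      have hF4 : Fintype.card F = 4 := by rw [hq]; norm_num
      exact killed_34 hF4 σ hσ (rc_psl32 hIH (card_psl3_four F hF4))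
    · exact killed_U hq hn h σ hσ (fun h' => rco_psu hIH hq hn h h')

end all

end Cfsg.Agent.H384.RC
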